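import Mathlib
import Cfsg.Agent.H691.T3.Defs

/-!
# Arithmetic for `central_of_psl3` (helper42)
-/

set_option autoImplicit false

namespace Cfsg.Agent.H42.Psl3

open Cfsg.Agent.H691.T3

/-- the large degrees -/
theorem dt_cases {q D : ℕ} (hq : 3 ≤ q) (hD : D ∈ DT q) :
    D ≤ (q - 1) * (q ^ 2 + q + 1) ∨ D = q ^ 3 ∨ D = q * (q ^ 2 + q + 1) ∨
      (5 ≤ q ∧ D = (q + 1) * (q ^ 2 + q + 1)) := by
  obtain ⟨t, rfl⟩ : ∃ t, q = t + 3 := ⟨q - 3, by omega⟩
  have e1 : t + 3 - 1 = t + 2 := by omega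
  rw [e1]
  have hP : (t + 3) ^ 3 = (t + 2) * ((t + 3) ^ 2 + (t + 3) + 1) + 1 := by ring
  rcases hD with h | h | h | h | h | ⟨_, h | h⟩ | ⟨h5, h⟩ | ⟨_, h | h⟩
  · left; rw [h]; nlinarith
  · left; rw [h]; nlinarith
  · exact Or.inr (Or.inl h)
  · left; omega
  · left; rw [h, e1]; nlinarith
  · left; rw [h]; nlinarith
  · exact Or.inr (Or.inr (Or.inl h))
  · exact Or.inr (Or.inr (Or.inr ⟨h5, h⟩))
  · left
    have : 3 * D ≤ 3 * ((t + 2) * ((t + 3) ^ 2 + (t + 3) + 1)) := by rw [h]; nlinarith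
    omega
  · left
    rw [e1] at h
    have : 3 * D ≤ 3 * ((t + 2) * ((t + 3) ^ 2 + (t + 3) + 1)) := by rw [h]; nlinarith
    omega

theorem arith_orbit {q D i m t : ℕ} (hq : 3 ≤ q) (hD : D ∈ DT q) (hD0 : 0 < D) (hi : q ^ 2 + q + 1 ≤ i) (hdvd : i ∣ D)
    (hle : i * (m * t) ≤ D) (ht : 1 ≤ t) (hm : (q ^ 2 - 1) * (q ^ 2 + q + 1) ≤ m ^ 2 * i) :
    t = 1 ∧ (i = q ^ 2 + q + 1 ∨ (q = 7 ∧ i = 76)) := by
  obtain ⟨u, hu⟩ := hdvd
  set n := q ^ 2 + q + 1 with hn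
  have hi0 : 0 < i := by omega
  -- `(q² - 1) n t² ≤ D u`
  have h1 : (q ^ 2 - 1) * n * t ^ 2 ≤ D * u := by
    have e1 : i * ((q ^ 2 - 1) * n * t ^ 2) ≤ i * (m ^ 2 * i * t ^ 2) :=
      Nat.mul_le_mul_left _ (Nat.mul_le_mul_right _ hm)
    have e2 : i * (m ^ 2 * i * t ^ 2) = (i * (m * t)) ^ 2 := by ring
    have e3 : (i * (m * t)) ^ 2 ≤ D ^ 2 := Nat.pow_le_pow_left hle 2
    have e4 : D ^ 2 = i * (D * u) := by rw [sq]; nth_rw 1 [hu]; ring
    rw [e2] at e1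
    exact Nat.le_of_mul_le_mul_left ((e1.trans e3).trans (le_of_eq e4)) hi0
  have h2 : u * n ≤ D := by
    rw [hu, mul_comm]
    exact Nat.mul_le_mul_right _ hi
  have hu0 : 0 < u := by
    rw [Nat.pos_iff_ne_zero]
    rintro rfl
    rw [mul_zero] at hu
    omega
  obtain ⟨s, hs⟩ : ∃ s, q = s + 3 := ⟨q - 3, by omega⟩
  have hq2 : q ^ 2 - 1 = (s + 2) * (s + 4) := by
    have : q ^ 2 = (s + 2) * (s + 4) + 1 := by rw [hs]; ring
    omega
  have hn' : n = s ^ 2 + 7 * s + 13 := by rw [hn, hs]; ring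
  have hn0 : 0 < n := by omega
  have ht2 : 1 ≤ t ^ 2 := Nat.one_le_pow _ _ ht
  rw [hq2] at h1
  have h3 : (s + 2) * (s + 4) * n ≤ D * u :=
    le_trans (by nlinarith [Nat.zero_le ((s + 2) * (s + 4) * n)]) h1
  have hcs := dt_cases hq hD
  rw [← hn] at hcs
  rcases hcs with h | h | h | ⟨h5, h⟩
  · exfalso
    have e1 : q - 1 = s + 2 := by omega
    rw [e1] at h
    have e2 : u ≤ s + 2 := Nat.le_of_mul_le_mul_right (h2.trans h) hn0
    have e3 : D * u ≤ (s + 2) * n * (s + 2) := Nat.mul_le_mul h e2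
    have e4 : (s + 2) * (s + 4) * n ≤ (s + 2) * n * (s + 2) := h3.trans e3
    have e5 : (s + 2) * n * (s + 2) + 2 * ((s + 2) * n) = (s + 2) * (s + 4) * n := by ring
    have e6 : 0 < (s + 2) * n := Nat.mul_pos (by omega) hn0
    omega
  · exfalso
    have e1 : u ≤ s + 2 := by
      by_contra hcon
      have e2 : (s + 3) * n ≤ u * n := Nat.mul_le_mul_right _ (by omega)
      rw [h, hs] at h2
      rw [hn'] at e2 h2
      nlinarith
    have e2 : D * u ≤ (s + 3) ^ 3 * (s + 2) := by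
      rw [h, hs]
      exact Nat.mul_le_mul_left _ e1
    rw [hn'] at h3
    nlinarith [h3.trans e2]
  · have e1 : u ≤ s + 3 := by
      rw [h, hs] at h2
      exact Nat.le_of_mul_le_mul_right h2 hn0
    have e2 : (s + 2) * (s + 4) * t ^ 2 ≤ (s + 3) * u := by
      have : (s + 2) * (s + 4) * t ^ 2 * n ≤ (s + 3) * u * n := by
        calc (s + 2) * (s + 4) * t ^ 2 * n = (s + 2) * (s + 4) * n * t ^ 2 := by ring
          _ ≤ D * u := h1
          _ = _ := by rw [h, hs]; ring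
      exact Nat.le_of_mul_le_mul_right this hn0
    have ht1 : t = 1 := by
      by_contra hne
      have e3 : 4 ≤ t ^ 2 := by
        have : 2 ^ 2 ≤ t ^ 2 := Nat.pow_le_pow_left (by omega) 2
        omega
      nlinarith [Nat.mul_le_mul_left ((s + 2) * (s + 4)) e3, Nat.mul_le_mul_left (s + 3) e1]
    have hu3 : u = s + 3 := by
      by_contra hne
      have e3 : u ≤ s + 2 := by omega
      rw [ht1] at e2
      nlinarith [Nat.mul_le_mul_left (s + 3) e3]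
    refine ⟨ht1, Or.inl ?_⟩
    rw [h, hu3, hs, mul_comm] at hu
    exact (Nat.eq_of_mul_eq_mul_right (by omega) hu).symm
  · have e1 : u ≤ s + 4 := by
      rw [h, hs] at h2
      exact Nat.le_of_mul_le_mul_right h2 hn0
    have e2 : (s + 2) * t ^ 2 ≤ u := by
      have : (s + 2) * t ^ 2 * ((s + 4) * n) ≤ u * ((s + 4) * n) := by
        calc (s + 2) * t ^ 2 * ((s + 4) * n) = (s + 2) * (s + 4) * n * t ^ 2 := by ring
          _ ≤ D * u := h1
          _ = _ := by rw [h, hs]; ring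
      exact Nat.le_of_mul_le_mul_right this (Nat.mul_pos (by omega) hn0)
    have ht1 : t = 1 := by
      by_contra hne
      have e3 : 4 ≤ t ^ 2 := by
        have : 2 ^ 2 ≤ t ^ 2 := Nat.pow_le_pow_left (by omega) 2
        omega
      nlinarith [Nat.mul_le_mul_left (s + 2) e3]
    refine ⟨ht1, ?_⟩
    rw [ht1, one_pow, mul_one] at e2
    have hcase : u = s + 4 ∨ u = s + 3 ∨ u = s + 2 := by omega
    rcases hcase with hu4 | hu4 | hu4
    · left
      rw [h, hu4, hs, mul_comm] at hu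
      exact (Nat.eq_of_mul_eq_mul_right (by omega) hu).symm
    · exfalso
      rw [h, hu4, hs, hn'] at hu
      have e3 : (s + 3 + 1) * (s ^ 2 + 7 * s + 13) = (s ^ 2 + 8 * s + 17) * (s + 3) + 1 := by ring
      rw [e3] at hu
      have e4 : (s + 3) ∣ 1 := by
        rw [← Nat.dvd_add_right (Dvd.intro_left (s ^ 2 + 8 * s + 17) rfl), hu]
        exact Dvd.intro_left _ rfl
      have := Nat.le_of_dvd one_pos e4
      omega
    · right
      rw [h, hu4, hs, hn'] at hu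
      have e3 : (s + 3 + 1) * (s ^ 2 + 7 * s + 13) = (s ^ 2 + 9 * s + 23) * (s + 2) + 6 := by ring
      rw [e3] at hu
      have e4 : (s + 2) ∣ 6 := by
        rw [← Nat.dvd_add_right (Dvd.intro_left (s ^ 2 + 9 * s + 23) rfl), hu]
        exact Dvd.intro_left _ rfl
      have e5 := Nat.le_of_dvd (by norm_num) e4
      have e6 : s = 2 ∨ s = 3 ∨ s = 4 := by omega
      rcases e6 with rfl | rfl | rfl
      · exact absurd e4 (by decide)
      · exact absurd e4 (by decide)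
      · exact ⟨hs, by omega⟩

/-- the largest degree -/
theorem dt_le {q D : ℕ} (hq : 3 ≤ q) (hD : D ∈ DT q) :
    D ≤ (q + 1) * (q ^ 2 + q + 1) ∧ (q ≤ 4 → D ≤ q * (q ^ 2 + q + 1)) := by
  rcases dt_cases hq hD with h | h | h | ⟨h5, h⟩
  · have e : (q - 1) * (q ^ 2 + q + 1) ≤ q * (q ^ 2 + q + 1) := Nat.mul_le_mul_right _ (by omega)
    have e' : q * (q ^ 2 + q + 1) ≤ (q + 1) * (q ^ 2 + q + 1) := Nat.mul_le_mul_right _ (by omega)
    exact ⟨by omega, fun _ => by omega⟩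
  · rw [h]
    exact ⟨by nlinarith, fun _ => by nlinarith⟩
  · rw [h]
    exact ⟨Nat.mul_le_mul_right _ (by omega), fun _ => le_rfl⟩
  · rw [h]
    exact ⟨le_rfl, fun h4 => by omega⟩

/-- the squares of the multiplicities are too small for a non-linear invariant character -/
theorem arith_inv {q d N k : ℕ} (hq : 3 ≤ q) (hd : d = Nat.gcd 3 (q - 1)) (hN : d * N = q ^ 3 * (q ^ 2 - 1) * (q ^ 3 - 1))
    (hk : d * k ≤ q ^ 2 + q + 10) (hk1 : d = 1 → k ≤ q ^ 2 + q) {M : ℕ}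
    (hM : M ≤ (q + 1) * (q ^ 2 + q + 1) ∧ (q ≤ 4 → M ≤ q * (q ^ 2 + q + 1))) (h : 4 * N ≤ k * M ^ 2) : False := by
  have hq' : q = 3 ∨ q = 4 ∨ 5 ≤ q := by omega
  rcases hq' with rfl | rfl | h5
  · have hd1 : d = 1 := by rw [hd]; decide
    have e1 := hM.2 (by omega)
    have e2 := hk1 hd1
    rw [hd1] at hN
    norm_num at hN e1 e2
    have e3 : k * M ^ 2 ≤ 12 * 39 ^ 2 := Nat.mul_le_mul e2 (Nat.pow_le_pow_left e1 2)
    omega
  · have hd1 : d = 3 := by rw [hd]; decide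
    have e1 := hM.2 (by omega)
    rw [hd1] at hN hk
    norm_num at hN e1 hk
    have e3 : k * M ^ 2 ≤ 10 * 84 ^ 2 := Nat.mul_le_mul (by omega) (Nat.pow_le_pow_left e1 2)
    omega
  · obtain ⟨s, hs⟩ : ∃ s, q = s + 5 := ⟨q - 5, by omega⟩
    have e1 : M ^ 2 ≤ ((q + 1) * (q ^ 2 + q + 1)) ^ 2 := Nat.pow_le_pow_left hM.1 2
    have e2 : 4 * (d * N) ≤ (q ^ 2 + q + 10) * ((q + 1) * (q ^ 2 + q + 1)) ^ 2 := by
      calc 4 * (d * N) = d * (4 * N) := by ring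
        _ ≤ d * (k * M ^ 2) := Nat.mul_le_mul_left _ h
        _ = (d * k) * M ^ 2 := by ring
        _ ≤ _ := Nat.mul_le_mul hk e1
    rw [hN] at e2
    have e3 : q ^ 2 - 1 = (s + 4) * (s + 6) := by
      have : q ^ 2 = (s + 4) * (s + 6) + 1 := by rw [hs]; ring
      omega
    have e4 : q ^ 3 - 1 = (s + 4) * (s ^ 2 + 11 * s + 31) := by
      have : q ^ 3 = (s + 4) * (s ^ 2 + 11 * s + 31) + 1 := by rw [hs]; ring
      omega
    have e5 : q ^ 2 + q + 1 = s ^ 2 + 11 * s + 31 := by rw [hs]; ring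
    rw [e3, e4, e5, hs] at e2
    have e6 : 4 * ((s + 5) ^ 3 * ((s + 4) * (s + 6)) * ((s + 4) * (s ^ 2 + 11 * s + 31))) =
        ((s + 6) * (s ^ 2 + 11 * s + 31)) * (4 * (s + 5) ^ 3 * (s + 4) ^ 2) := by ring
    have e7 : ((s + 5) ^ 2 + (s + 5) + 10) * ((s + 5 + 1) * (s ^ 2 + 11 * s + 31)) ^ 2 =
        ((s + 6) * (s ^ 2 + 11 * s + 31)) * (((s + 5) ^ 2 + (s + 5) + 10) * ((s + 6) * (s ^ 2 + 11 * s + 31))) := by ring
    rw [e6, e7] at e2
    have e8 := Nat.le_of_mul_le_mul_left e2 (by positivity)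
    nlinarith [Nat.zero_le (s ^ 5), Nat.zero_le (s ^ 4), Nat.zero_le (s ^ 3), Nat.zero_le (s ^ 2)]

end Cfsg.Agent.H42.Psl3
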