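import Mathlib

/-!
# Centralisers of non-scalar `3 × 3` matrices (helper42)

`Cn M = {y | det y = 1, y M = w M y for some w}` has at most `(q - 1) q³` elements when `M` is invertible and not scalar.
-/

set_option autoImplicit false

namespace Cfsg.Agent.H42.Psl3

open Matrix

variable {F : Type*} [Field F]

/-- The matrices of determinant one commuting with `M` up to a scalar. -/
def Cn (M : Matrix (Fin 3) (Fin 3) F) : Set (Matrix (Fin 3) (Fin 3) F) :=
  {y | y.det = 1 ∧ ∃ w : F, y * M = w • (M * y)}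

theorem card_cn_le_of_inj [Fintype F] {M : Matrix (Fin 3) (Fin 3) F}
    (f : Cn M → Fˣ × (F × F × F)) (hf : Function.Injective f) :
    Nat.card (Cn M) ≤ (Fintype.card F - 1) * Fintype.card F ^ 3 := by
  classical
  have h := Nat.card_le_card_of_injective f hf
  refine h.trans (le_of_eq ?_)
  rw [Nat.card_prod, Nat.card_prod, Nat.card_prod, Nat.card_units, Nat.card_eq_fintype_card]
  ring

/-- conjugation -/
theorem card_cn_conj [Finite F] {M M' P : Matrix (Fin 3) (Fin 3) F} (hP : P.det ≠ 0) (h : M * P = P * M') :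
    Nat.card (Cn M) ≤ Nat.card (Cn M') := by
  classical
  have hu : IsUnit P.det := isUnit_iff_ne_zero.2 hP
  have h1 : P * P⁻¹ = 1 := Matrix.mul_nonsing_inv _ hu
  have h2 : P⁻¹ * P = 1 := Matrix.nonsing_inv_mul _ hu
  have hM : M' = P⁻¹ * M * P := by rw [mul_assoc, h, ← mul_assoc, h2, one_mul]
  let f : Cn M → Cn M' := fun y => ⟨P⁻¹ * y * P, by
    constructor
    · rw [Matrix.det_mul, Matrix.det_mul, y.2.1, mul_one, ← Matrix.det_mul, h2, Matrix.det_one]
    · obtain ⟨w, hw⟩ := y.2.2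
      refine ⟨w, ?_⟩
      have e1 : P⁻¹ * (y : Matrix (Fin 3) (Fin 3) F) * P * M' = P⁻¹ * (y * M) * P := by
        rw [hM]
        calc P⁻¹ * (y : Matrix (Fin 3) (Fin 3) F) * P * (P⁻¹ * M * P) = P⁻¹ * y * (P * P⁻¹) * M * P := by
              simp only [mul_assoc]
          _ = _ := by rw [h1]; simp only [mul_assoc, one_mul]
      have e2 : M' * (P⁻¹ * (y : Matrix (Fin 3) (Fin 3) F) * P) = P⁻¹ * (M * y) * P := by
        rw [hM]
        calc P⁻¹ * M * P * (P⁻¹ * (y : Matrix (Fin 3) (Fin 3) F) * P) = P⁻¹ * M * (P * P⁻¹) * y * P := by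
              simp only [mul_assoc]
          _ = _ := by rw [h1]; simp only [mul_assoc, one_mul]
      rw [e1, e2, hw, Matrix.mul_smul, Matrix.smul_mul]⟩
  refine Nat.card_le_card_of_injective f ?_
  intro y y' hyy
  have h3 : P⁻¹ * (y : Matrix (Fin 3) (Fin 3) F) * P = P⁻¹ * y' * P := congrArg Subtype.val hyy
  apply Subtype.ext
  have h4 : P * (P⁻¹ * (y : Matrix (Fin 3) (Fin 3) F) * P) * P⁻¹ = P * (P⁻¹ * y' * P) * P⁻¹ := by rw [h3]
  have h5 : ∀ z : Matrix (Fin 3) (Fin 3) F, P * (P⁻¹ * z * P) * P⁻¹ = z := by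
    intro z
    calc P * (P⁻¹ * z * P) * P⁻¹ = (P * P⁻¹) * z * (P * P⁻¹) := by simp only [mul_assoc]
      _ = z := by rw [h1, one_mul, mul_one]
  rw [h5, h5] at h4
  exact h4

/-- cyclic vectors -/
theorem card_cn_cyclic [Fintype F] {M : Matrix (Fin 3) (Fin 3) F} (hM : M.det ≠ 0) (x : Fin 3 → F)
    (hx : (Matrix.of ![x, M *ᵥ x, M *ᵥ (M *ᵥ x)]).det ≠ 0) :
    Nat.card (Cn M) ≤ (Fintype.card F - 1) * Fintype.card F ^ 3 := by
  classical
  choose w hw using fun y : Cn M => y.2.2
  have hw0 : ∀ y, w y ≠ 0 := by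
    intro y h0
    have h1 := hw y
    rw [h0, zero_smul] at h1
    have h2 := congrArg Matrix.det h1
    rw [Matrix.det_mul, y.2.1, one_mul, Matrix.det_zero] at h2
    exact hM h2
  refine card_cn_le_of_inj (fun y => (Units.mk0 (w y) (hw0 y),
    ((y : Matrix (Fin 3) (Fin 3) F) *ᵥ x) 0, ((y : Matrix (Fin 3) (Fin 3) F) *ᵥ x) 1,
    ((y : Matrix (Fin 3) (Fin 3) F) *ᵥ x) 2) ) ?_
  intro y y' h
  simp only [Prod.mk.injEq, Units.mk0_inj] at h
  obtain ⟨h1, h2, h3, h4⟩ := h
  have e0 : (y : Matrix (Fin 3) (Fin 3) F) *ᵥ x = (y' : Matrix (Fin 3) (Fin 3) F) *ᵥ x := by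
    funext i
    fin_cases i
    · exact h2
    · exact h3
    · exact h4
  have step : ∀ v : Fin 3 → F, (y : Matrix (Fin 3) (Fin 3) F) *ᵥ v = (y' : Matrix (Fin 3) (Fin 3) F) *ᵥ v →
      (y : Matrix (Fin 3) (Fin 3) F) *ᵥ (M *ᵥ v) = (y' : Matrix (Fin 3) (Fin 3) F) *ᵥ (M *ᵥ v) := by
    intro v hv
    rw [Matrix.mulVec_mulVec, Matrix.mulVec_mulVec, hw y, hw y', Matrix.smul_mulVec, Matrix.smul_mulVec,
      ← Matrix.mulVec_mulVec, ← Matrix.mulVec_mulVec, hv, h1]
  have e1 := step x e0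
  have e2 := step _ e1
  apply Subtype.ext
  set X := Matrix.of ![x, M *ᵥ x, M *ᵥ (M *ᵥ x)] with hX
  have e3 : (y : Matrix (Fin 3) (Fin 3) F) * Xᵀ = (y' : Matrix (Fin 3) (Fin 3) F) * Xᵀ := by
    ext i j
    have hcol : ∀ (z : Matrix (Fin 3) (Fin 3) F), (z * Xᵀ) i j = (z *ᵥ (X j)) i := by
      intro z
      simp only [Matrix.mul_apply, Matrix.mulVec, dotProduct, Matrix.transpose_apply]
    rw [hcol, hcol]
    fin_cases j
    · exact congrFun e0 i
    · exact congrFun e1 i
    · exact congrFun e2 i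
  have hu : IsUnit Xᵀ.det := by rw [Matrix.det_transpose]; exact isUnit_iff_ne_zero.2 hx
  have h5 := congrArg (· * (Xᵀ)⁻¹) e3
  simp only [mul_assoc, Matrix.mul_nonsing_inv _ hu, mul_one] at h5
  exact h5

/-- `diag(a, b, b)` -/
theorem card_cn_diag [Fintype F] {a b : F} (hb : b ≠ 0) (hab : a ≠ b) :
    Nat.card (Cn !![a, 0, 0; 0, b, 0; 0, 0, b]) ≤ (Fintype.card F - 1) * Fintype.card F ^ 3 := by
  classical
  have key : ∀ y : Matrix (Fin 3) (Fin 3) F, y ∈ Cn !![a, 0, 0; 0, b, 0; 0, 0, b] →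
      y 0 1 = 0 ∧ y 0 2 = 0 ∧ y 1 0 = 0 ∧ y 2 0 = 0 ∧ y 0 0 * (y 1 1 * y 2 2 - y 1 2 * y 2 1) = 1 := by
    rintro y ⟨hy, w, hw⟩
    have e : ∀ i j, (y * !![a, 0, 0; 0, b, 0; 0, 0, b]) i j = (w • (!![a, 0, 0; 0, b, 0; 0, 0, b] * y)) i j :=
      fun i j => by rw [hw]
    have e01 := e 0 1
    have e02 := e 0 2
    have e10 := e 1 0
    have e20 := e 2 0
    have e11 := e 1 1
    have e12 := e 1 2
    have e21 := e 2 1
    have e22 := e 2 2
    simp [Matrix.mul_apply, Matrix.vecMul, dotProduct, Fin.sum_univ_three] at e01 e02 e10 e20 e11 e12 e21 e22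
    rw [Matrix.det_fin_three] at hy
    have hw1 : w = 1 := by
      by_contra hne
      have hk : b - w * b ≠ 0 := by
        intro h
        apply hne
        have : b * (1 - w) = 0 := by linear_combination h
        rcases mul_eq_zero.1 this with h | h
        · exact absurd h hb
        · linear_combination -h
      have z : ∀ t : F, t * b = w * (b * t) → t = 0 := by
        intro t ht
        have : t * (b - w * b) = 0 := by linear_combination ht
        rcases mul_eq_zero.1 this with h | h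
        · exact h
        · exact absurd h hk
      have z11 := z _ e11
      have z12 := z _ e12
      have z21 := z _ e21
      have z22 := z _ e22
      rw [z11, z12, z21, z22] at hy
      apply one_ne_zero (α := F)
      rw [← hy]
      ring
    subst hw1
    have z : ∀ t : F, t * b = 1 * (a * t) → t = 0 := by
      intro t ht
      have : t * (b - a) = 0 := by linear_combination ht
      rcases mul_eq_zero.1 this with h | h
      · exact h
      · exact absurd (by linear_combination -h) hab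
    have z01 := z _ (by simpa using e01)
    have z02 := z _ (by simpa using e02)
    have z10 := z (y 1 0) (by linear_combination -e10)
    have z20 := z (y 2 0) (by linear_combination -e20)
    refine ⟨z01, z02, z10, z20, ?_⟩
    rw [z01, z02] at hy
    linear_combination hy
  have h00 : ∀ y : Cn !![a, 0, 0; 0, b, 0; 0, 0, b], (y : Matrix (Fin 3) (Fin 3) F) 0 0 ≠ 0 := by
    intro y h0
    have := (key y y.2).2.2.2.2
    rw [h0, zero_mul] at this
    exact zero_ne_one this
  refine card_cn_le_of_inj (fun y => (Units.mk0 ((y : Matrix (Fin 3) (Fin 3) F) 0 0) (h00 y),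
    (y : Matrix (Fin 3) (Fin 3) F) 1 1, (y : Matrix (Fin 3) (Fin 3) F) 1 2,
    if (y : Matrix (Fin 3) (Fin 3) F) 1 1 = 0 then (y : Matrix (Fin 3) (Fin 3) F) 2 2
      else (y : Matrix (Fin 3) (Fin 3) F) 2 1)) ?_
  rintro ⟨y, hy⟩ ⟨y', hy'⟩ h
  simp only [Prod.mk.injEq, Units.mk0_inj] at h
  obtain ⟨h1, h2, h3, h4⟩ := h
  obtain ⟨z01, z02, z10, z20, hd⟩ := key y hy
  obtain ⟨z01', z02', z10', z20', hd'⟩ := key y' hy'
  have hu : y 0 0 ≠ 0 := h00 ⟨y, hy⟩
  have h5 : y 2 1 = y' 2 1 ∧ y 2 2 = y' 2 2 := by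
    rw [← h1, ← h2, ← h3] at hd'
    rw [← h2] at h4
    by_cases h0 : y 1 1 = 0
    · rw [if_pos h0, if_pos h0] at h4
      refine ⟨?_, h4⟩
      rw [h0] at hd hd'
      have h12 : y 1 2 ≠ 0 := by
        intro h
        rw [h] at hd
        apply one_ne_zero (α := F)
        rw [← hd]
        ring
      have : y 0 0 * y 1 2 * (y 2 1 - y' 2 1) = 0 := by linear_combination hd' - hd
      rcases mul_eq_zero.1 this with h | h
      · exact absurd h (mul_ne_zero hu h12)
      · linear_combination h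
    · rw [if_neg h0, if_neg h0] at h4
      refine ⟨h4, ?_⟩
      have : y 0 0 * y 1 1 * (y 2 2 - y' 2 2) = 0 := by linear_combination hd - hd' + y 0 0 * y 1 2 * h4
      rcases mul_eq_zero.1 this with h | h
      · exact absurd h (mul_ne_zero hu h0)
      · linear_combination h
  apply Subtype.ext
  ext i j
  fin_cases i <;> fin_cases j
  · exact h1
  · exact z01.trans z01'.symm
  · exact z02.trans z02'.symm
  · exact z10.trans z10'.symm
  · exact h2
  · exact h3
  · exact z20.trans z20'.symm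
  · exact h5.1
  · exact h5.2

/-- `b + e₁₃` -/
theorem card_cn_jordan [Fintype F] {b : F} (hb : b ≠ 0) :
    Nat.card (Cn !![b, 0, 1; 0, b, 0; 0, 0, b]) ≤ (Fintype.card F - 1) * Fintype.card F ^ 3 := by
  classical
  have key : ∀ y : Matrix (Fin 3) (Fin 3) F, y ∈ Cn !![b, 0, 1; 0, b, 0; 0, 0, b] →
      y 1 0 = 0 ∧ y 2 0 = 0 ∧ y 2 1 = 0 ∧ y 2 2 = y 0 0 ∧ y 0 0 * y 0 0 * y 1 1 = 1 := by
    rintro y ⟨hy, w, hw⟩
    have e : ∀ i j, (y * !![b, 0, 1; 0, b, 0; 0, 0, b]) i j = (w • (!![b, 0, 1; 0, b, 0; 0, 0, b] * y)) i j :=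
      fun i j => by rw [hw]
    have e00 := e 0 0
    have e01 := e 0 1
    have e02 := e 0 2
    have e10 := e 1 0
    have e20 := e 2 0
    have e11 := e 1 1
    have e12 := e 1 2
    have e21 := e 2 1
    have e22 := e 2 2
    simp [Matrix.mul_apply, Matrix.vecMul, dotProduct, Fin.sum_univ_three] at e00 e01 e02 e10 e20 e11 e12 e21 e22
    rw [Matrix.det_fin_three] at hy
    have hw1 : w = 1 := by
      by_contra hne
      have hk : b - w * b ≠ 0 := by
        intro h
        apply hne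
        have : b * (1 - w) = 0 := by linear_combination h
        rcases mul_eq_zero.1 this with h | h
        · exact absurd h hb
        · linear_combination -h
      have z : ∀ t : F, t * b = w * (b * t) → t = 0 := by
        intro t ht
        have : t * (b - w * b) = 0 := by linear_combination ht
        rcases mul_eq_zero.1 this with h | h
        · exact h
        · exact absurd h hk
      have z10 := z _ e10
      have z11 := z _ e11
      have z12 := z (y 1 2) (by linear_combination e12 - z10)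
      rw [z10, z11, z12] at hy
      apply one_ne_zero (α := F)
      rw [← hy]
      ring
    subst hw1
    have z20 : y 2 0 = 0 := by linear_combination -e00
    have z21 : y 2 1 = 0 := by linear_combination -e01
    have z22 : y 2 2 = y 0 0 := by linear_combination -e02
    have z10 : y 1 0 = 0 := by linear_combination e12
    refine ⟨z10, z20, z21, z22, ?_⟩
    rw [z10, z20, z21, z22] at hy
    linear_combination hy
  have h00 : ∀ y : Cn !![b, 0, 1; 0, b, 0; 0, 0, b], (y : Matrix (Fin 3) (Fin 3) F) 0 0 ≠ 0 := by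
    intro y h0
    have := (key y y.2).2.2.2.2
    rw [h0, zero_mul, zero_mul] at this
    exact zero_ne_one this
  refine card_cn_le_of_inj (fun y => (Units.mk0 ((y : Matrix (Fin 3) (Fin 3) F) 0 0) (h00 y),
    (y : Matrix (Fin 3) (Fin 3) F) 0 1, (y : Matrix (Fin 3) (Fin 3) F) 0 2,
    (y : Matrix (Fin 3) (Fin 3) F) 1 2)) ?_
  rintro ⟨y, hy⟩ ⟨y', hy'⟩ h
  simp only [Prod.mk.injEq, Units.mk0_inj] at h
  obtain ⟨h1, h2, h3, h4⟩ := h
  obtain ⟨z10, z20, z21, z22, hd⟩ := key y hy
  obtain ⟨z10', z20', z21', z22', hd'⟩ := key y' hy'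
  have hu : y 0 0 ≠ 0 := h00 ⟨y, hy⟩
  have h11 : y 1 1 = y' 1 1 := by
    rw [← h1] at hd'
    have : y 0 0 * y 0 0 * (y 1 1 - y' 1 1) = 0 := by linear_combination hd - hd'
    rcases mul_eq_zero.1 this with h | h
    · exact absurd h (mul_ne_zero hu hu)
    · linear_combination h
  apply Subtype.ext
  ext i j
  fin_cases i <;> fin_cases j
  · exact h1
  · exact h2
  · exact h3
  · exact z10.trans z10'.symm
  · exact h11
  · exact h4
  · exact z20.trans z20'.symm
  · exact z21.trans z21'.symm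
  · exact z22.trans (h1.trans z22'.symm)

/-- the first column is the second unit vector -/
theorem card_cn_std [Fintype F] {α β γ δ ε b : F} (hM : (!![0, α, γ; 1, β, δ; 0, ε, b] : Matrix (Fin 3) (Fin 3) F).det ≠ 0) :
    Nat.card (Cn !![0, α, γ; 1, β, δ; 0, ε, b]) ≤ (Fintype.card F - 1) * Fintype.card F ^ 3 := by
  by_cases hε : ε = 0
  · subst hε
    by_cases hAB : α + b * (β - b) = 0 ∧ γ + b * δ = 0
    · obtain ⟨hA, hB⟩ := hAB
      have hα : α = - (b * (β - b)) := by linear_combination hA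
      have hγ : γ = - (b * δ) := by linear_combination hB
      subst hα hγ
      have hb : b ≠ 0 := by
        rintro rfl
        apply hM
        rw [Matrix.det_fin_three]
        simp
      by_cases hf : β - 2 * b = 0
      · have hβ : β = 2 * b := by linear_combination hf
        subst hβ
        refine (card_cn_conj (P := !![-b, -δ, 1; 1, 0, 0; 0, 1, 0]) (M' := !![b, 0, 1; 0, b, 0; 0, 0, b]) ?_ ?_).trans
          (card_cn_jordan hb)
        · rw [Matrix.det_fin_three]
          simp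
        · ext i j
          fin_cases i <;> fin_cases j <;> simp [Matrix.mul_apply, Fin.sum_univ_three] <;>
            first | ring1 | (left; ring1)
      · refine (card_cn_conj (P := !![-b, -(β - b), -δ; 1, 1, 0; 0, 0, 1]) (M' := !![β - b, 0, 0; 0, b, 0; 0, 0, b]) ?_ ?_).trans
          (card_cn_diag hb ?_)
        · rw [Matrix.det_fin_three]
          simp
          intro h
          apply hf
          linear_combination h
        · ext i j
          fin_cases i <;> fin_cases j <;> simp [Matrix.mul_apply, Fin.sum_univ_three] <;> ring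
        · intro h
          apply hf
          linear_combination h
    · obtain ⟨s, hs⟩ : ∃ s : F, (α + b * (β - b)) * s + (γ + b * δ) ≠ 0 := by
        by_cases hB : γ + b * δ = 0
        · refine ⟨1, ?_⟩
          rw [hB, mul_one, add_zero]
          exact fun h => hAB ⟨h, hB⟩
        · exact ⟨0, by rwa [mul_zero, zero_add]⟩
      refine card_cn_cyclic hM ![-(β - b) * s - δ, s, 1] ?_
      have : (Matrix.of ![![-(β - b) * s - δ, s, 1], !![0, α, γ; 1, β, δ; 0, 0, b] *ᵥ ![-(β - b) * s - δ, s, 1],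
          !![0, α, γ; 1, β, δ; 0, 0, b] *ᵥ (!![0, α, γ; 1, β, δ; 0, 0, b] *ᵥ ![-(β - b) * s - δ, s, 1])]).det =
          ((α + b * (β - b)) * s + (γ + b * δ)) ^ 2 := by
        rw [Matrix.det_fin_three]
        simp [dotProduct, Fin.sum_univ_three]
        ring
      rw [this]
      exact pow_ne_zero 2 hs
  · refine card_cn_cyclic hM ![1, 0, 0] ?_
    have : (Matrix.of ![![1, 0, 0], !![0, α, γ; 1, β, δ; 0, ε, b] *ᵥ ![1, 0, 0],
        !![0, α, γ; 1, β, δ; 0, ε, b] *ᵥ (!![0, α, γ; 1, β, δ; 0, ε, b] *ᵥ ![1, 0, 0])]).det = ε := by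
      rw [Matrix.det_fin_three]
      simp [dotProduct, Fin.sum_univ_three]
    rw [this]
    exact hε

/-- a non-scalar matrix moves some line -/
theorem exists_cross {M : Matrix (Fin 3) (Fin 3) F} (hM : ¬ ∃ c : F, M = c • (1 : Matrix (Fin 3) (Fin 3) F)) :
    ∃ v t : Fin 3 → F, (Matrix.of ![v, M *ᵥ v, t]).det ≠ 0 := by
  by_contra hcon
  push Not at hcon
  apply hM
  have h : ∀ v t : Fin 3 → F, v 0 * (M *ᵥ v) 1 * t 2 - v 0 * (M *ᵥ v) 2 * t 1 - v 1 * (M *ᵥ v) 0 * t 2 +
      v 1 * (M *ᵥ v) 2 * t 0 + v 2 * (M *ᵥ v) 0 * t 1 - v 2 * (M *ᵥ v) 1 * t 0 = 0 := by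
    intro v t
    have := hcon v t
    rw [Matrix.det_fin_three] at this
    simpa using this
  have a1 := h ![1, 0, 0] ![0, 0, 1]
  have a2 := h ![1, 0, 0] ![0, 1, 0]
  have b1 := h ![0, 1, 0] ![0, 0, 1]
  have b2 := h ![0, 1, 0] ![1, 0, 0]
  have c1 := h ![0, 0, 1] ![0, 1, 0]
  have c2 := h ![0, 0, 1] ![1, 0, 0]
  have d1 := h ![1, 1, 0] ![0, 0, 1]
  have d2 := h ![0, 1, 1] ![1, 0, 0]
  simp [Matrix.mulVec, dotProduct, Fin.sum_univ_three] at a1 a2 b1 b2 c1 c2 d1 d2
  refine ⟨M 0 0, ?_⟩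
  ext i j
  fin_cases i <;> fin_cases j <;> simp [a1, a2, b1, b2, c1, c2]
  · linear_combination d1 - a1 + b1
  · linear_combination d1 - a1 + b1 + d2 - b2 + c2

/-- **Centralisers of non-scalar invertible matrices.** -/
theorem card_cn_le [Fintype F] {M : Matrix (Fin 3) (Fin 3) F} (h0 : M.det ≠ 0)
    (hM : ¬ ∃ c : F, M = c • (1 : Matrix (Fin 3) (Fin 3) F)) :
    Nat.card (Cn M) ≤ (Fintype.card F - 1) * Fintype.card F ^ 3 := by
  obtain ⟨v, t, hvt⟩ := exists_cross hM
  set X := (Matrix.of ![v, M *ᵥ v, t]) with hX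
  have hP : Xᵀ.det ≠ 0 := by rwa [Matrix.det_transpose]
  have hu : IsUnit Xᵀ.det := isUnit_iff_ne_zero.2 hP
  have h1 : Xᵀ * Xᵀ⁻¹ = 1 := Matrix.mul_nonsing_inv _ hu
  have h2 : Xᵀ⁻¹ * Xᵀ = 1 := Matrix.nonsing_inv_mul _ hu
  set M' := Xᵀ⁻¹ * M * Xᵀ with hM'
  have hMP : M * Xᵀ = Xᵀ * M' := by
    rw [hM', ← mul_assoc, ← mul_assoc, h1, one_mul]
  have hcol : M' *ᵥ ![1, 0, 0] = ![0, 1, 0] := by
    have e1 : Xᵀ *ᵥ ![1, 0, 0] = v := by
      funext i
      simp [hX, Matrix.mulVec, dotProduct, Fin.sum_univ_three]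
    have e2 : Xᵀ *ᵥ ![0, 1, 0] = M *ᵥ v := by
      funext i
      simp [hX, Matrix.mulVec, dotProduct, Fin.sum_univ_three]
    rw [hM', ← Matrix.mulVec_mulVec, ← Matrix.mulVec_mulVec, e1, ← e2, Matrix.mulVec_mulVec, h2, Matrix.one_mulVec]
  have hform : M' = !![0, M' 0 1, M' 0 2; 1, M' 1 1, M' 1 2; 0, M' 2 1, M' 2 2] := by
    have c0 := congrFun hcol 0
    have c1 := congrFun hcol 1
    have c2 := congrFun hcol 2
    simp [Matrix.mulVec, dotProduct, Fin.sum_univ_three] at c0 c1 c2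
    ext i j
    fin_cases i <;> fin_cases j <;> simp [c0, c1, c2]
  have hdet : M'.det ≠ 0 := by
    intro h
    have h3 := congrArg Matrix.det hMP
    rw [Matrix.det_mul, Matrix.det_mul, h, mul_zero] at h3
    exact mul_ne_zero h0 hP h3
  refine (card_cn_conj hP hMP).trans ?_
  rw [hform] at hdet ⊢
  exact card_cn_std hdet

end Cfsg.Agent.H42.Psl3
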